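import Cfsg.Agent.H777.Ore.Base
import Cfsg.Agent.H51.Mult
import Cfsg.Agent.H80.Fpf.Mult

/-!
# Rows of S2491 / S2492: tools (helper523)
-/

set_option autoImplicit false

namespace Cfsg.Agent.H523.QO

open Cfsg.Agent.H51.Mult (PCE)
open Cfsg.Agent.H777.Ore (AllC IsC)
open Cfsg.Agent.H80.Fpf (IsCover MultDvd multDvd_of multDvd_of_cyclic exists_of_universal)

universe u v w

/-- local form of the row predicate -/
def RA (K : Type v) [Group K] : Prop := ∀ (L : Type) [Group L] [Finite L] (π : L →* K), PCE π → AllC L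

theorem perf_of_allC {U : Type u} [Group U] (h : AllC U) : commutator U = ⊤ := by
  rw [eq_top_iff]
  intro g _
  obtain ⟨a, b, rfl⟩ := h g
  exact Subgroup.commutator_mem_commutator (Subgroup.mem_top a) (Subgroup.mem_top b)

/-- **rows from a universal cover** -/
theorem RA.of_univ {K : Type v} [Group K] [Finite K] {m : ℕ} (hm0 : m ≠ 0) (hm : MultDvd K m)
    {U : Type} [Group U] [Finite U] {υ : U →* K} (hs : Function.Surjective υ) (hc : υ.ker ≤ Subgroup.center U)
    (hcard : Nat.card υ.ker = m) (hU : AllC U) : RA K := by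
  intro L _ _ π hπ
  obtain ⟨θ, hθ, -⟩ := exists_of_universal hm0 hm (υ := υ) ⟨hs, hc, perf_of_allC hU⟩ hcard (π := π)
    ⟨hπ.surj, hπ.cen, hπ.perf⟩
  exact AllC.of_surjective θ hθ hU

/-- the quotient by the centre -/
theorem RA.of_center {U : Type} [Group U] [Finite U] (hU : AllC U)
    (hm : MultDvd (U ⧸ Subgroup.center U) (Nat.card (Subgroup.center U))) : RA (U ⧸ Subgroup.center U) := by
  refine RA.of_univ (Nat.card_pos (α := Subgroup.center U)).ne' hm (υ := QuotientGroup.mk' (Subgroup.center U))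
    (QuotientGroup.mk'_surjective _) ?_ ?_ hU
  · rw [QuotientGroup.ker_mk']
  · rw [QuotientGroup.ker_mk']

/-- trivial multiplier -/
theorem RA.of_trivial {K : Type} [Group K] [Finite K] (hK : AllC K) (hm : MultDvd K 1) : RA K := by
  refine RA.of_univ one_ne_zero hm (υ := MonoidHom.id K) Function.surjective_id ?_ ?_ hK
  · rw [MonoidHom.ker_id]; exact bot_le
  · rw [MonoidHom.ker_id]; exact Nat.card_unique

theorem RA.congr {K : Type u} {K' : Type v} [Group K] [Group K'] (h : RA K) (e : K ≃* K') : RA K' := by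
  intro L _ _ π hπ
  exact h L _ (hπ.congr e.symm)

end Cfsg.Agent.H523.QO
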